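import Cfsg.Agent.Lib.PGroup.Extraspecial2

set_option autoImplicit false

/-! # 2-groups without normal elementary abelian subgroups of order 8: basic lemmas -/

namespace Cfsg.Agent.Scn

open Subgroup Cfsg.Agent.Lib.PGroup
open scoped commutatorElement

variable {X : Type*} [Group X]

/-- the subgroup generated by the central involutions -/
def VV (X : Type*) [Group X] : Subgroup X where
  carrier := {x | x ∈ center X ∧ x ^ 2 = 1}
  one_mem' := ⟨one_mem _, one_pow _⟩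
  mul_mem' := fun {a b} ha hb => ⟨mul_mem ha.1 hb.1, by
    rw [(commute_of_mem_center ha.1 b).mul_pow, ha.2, hb.2, one_mul]⟩
  inv_mem' := fun ha => ⟨inv_mem ha.1, by rw [inv_pow, ha.2, inv_one]⟩

theorem VV.comm {v : X} (h : v ∈ VV X) (g : X) : Commute v g := commute_of_mem_center h.1 g

theorem VV.mul_self {v : X} (h : v ∈ VV X) : v * v = 1 := by rw [← sq]; exact h.2

instance : (VV X).Normal := ⟨fun n hn g => by rw [← (VV.comm hn g).eq, mul_inv_cancel_right]; exact hn⟩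

theorem map_center (φ : MulAut X) {z : X} (h : z ∈ center X) : φ z ∈ center X :=
  mem_center_iff.2 fun g => by
    obtain ⟨g, rfl⟩ := φ.surjective g
    rw [← map_mul, ← map_mul, mem_center_iff.1 h]

theorem VV.map (φ : MulAut X) {v : X} (h : v ∈ VV X) : φ v ∈ VV X :=
  ⟨map_center φ h.1, by rw [← map_pow, h.2, map_one]⟩

/-- invariance under `A` -/
def Inv (A : Subgroup (MulAut X)) (N : Subgroup X) : Prop := ∀ φ ∈ A, ∀ x ∈ N, φ x ∈ N

theorem Inv.cent {A : Subgroup (MulAut X)} {N : Subgroup X} (h : Inv A N) :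
    Inv A (centralizer (N : Set X)) := fun φ hφ x hx => mem_centralizer_iff.2 fun n hn => by
  have := mem_centralizer_iff.1 hx _ (h _ (inv_mem hφ) n hn)
  simpa using congrArg φ this

structure Hyp (A : Subgroup (MulAut X)) : Prop where
  two : IsPGroup 2 X
  odd : Odd (Nat.card A)
  gen : ∀ K : Subgroup X, (∀ φ ∈ A, ∀ x, x⁻¹ * φ x ∈ K) → K = ⊤
  no8 : ∀ E : Subgroup X, E.Normal → IsElementaryAbelian 2 E → Nat.card E ≤ 4

theorem two_ind (h : IsPGroup 2 X) {P : X → Prop} (h1 : P 1) (h2 : ∀ b, P (b ^ 2) → P b) (b : X) :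
    P b := by
  obtain ⟨k, hk⟩ := h b
  induction k generalizing b with
  | zero => rw [pow_zero, pow_one] at hk; exact hk ▸ h1
  | succ k ih => exact h2 b (ih _ (by rw [← pow_mul, ← pow_succ', hk]))

theorem mem_of_pow_odd (h : IsPGroup 2 X) {N : Subgroup X} {x : X} {n : ℕ} (hn : Odd n)
    (hx : x ^ n ∈ N) : x ∈ N := by
  obtain ⟨k, hk⟩ := h.exists_orderOf_eq_pow x
  obtain ⟨m, hm⟩ := exists_pow_eq_self_of_coprime (x := x) (n := n)
    (hk ▸ Nat.Coprime.pow_right k (Nat.coprime_two_right.2 hn))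
  exact hm ▸ pow_mem hx m

theorem four_cases {V : Subgroup X} [Finite V] (hV : Nat.card V ≤ 4) {a b c : X} (ha : a ∈ V)
    (hb : b ∈ V) (hc : c ∈ V) (a1 : a ≠ 1) (b1 : b ≠ 1) (ab : a ≠ b) (ab1 : a * b ≠ 1) :
    c = 1 ∨ c = a ∨ c = b ∨ c = a * b := by
  classical
  by_contra! k
  obtain ⟨k1, k2, k3, k4⟩ := k
  have : ({1, a, b, a * b, c} : Set X).ncard ≤ 4 := (Set.ncard_le_ncard (t := (V : Set X)) (by
    rintro _ (rfl | rfl | rfl | rfl | rfl)
    exacts [one_mem _, ha, hb, mul_mem ha hb, hc]) (Set.toFinite _)).trans hV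
  rw [Set.ncard_insert_of_notMem (by simp [a1.symm, b1.symm, ab1.symm, k1.symm]),
    Set.ncard_insert_of_notMem (by simp [ab, b1, k2.symm]),
    Set.ncard_insert_of_notMem (by simp [a1, k3.symm]),
    Set.ncard_insert_of_notMem (by simp [k4.symm]), Set.ncard_singleton] at this
  omega

variable [Finite X] {A : Subgroup (MulAut X)}

theorem Hyp.chain (h : Hyp A) {φ : MulAut X} (hφ : φ ∈ A) {x : X}
    (hx : φ (x⁻¹ * φ x) = x⁻¹ * φ x) : φ x = x := by
  have k : ∀ n : ℕ, (φ ^ n) x = x * (x⁻¹ * φ x) ^ n := by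
    intro n
    induction n with
    | zero => simp
    | succ n ih => rw [pow_succ', MulAut.mul_apply, ih, map_mul, map_pow, hx, pow_succ', ← mul_assoc,
        mul_inv_cancel_left]
  have e : φ ^ Nat.card A = 1 := congrArg Subtype.val (pow_card_eq_one' (x := (⟨φ, hφ⟩ : A)))
  have := k (Nat.card A)
  rw [e, MulAut.one_apply, left_eq_mul] at this
  have := mem_of_pow_odd h.two (N := ⊥) h.odd this
  rw [mem_bot, inv_mul_eq_one] at this
  exact this.symm

theorem Hyp.fix_ab (h : Hyp A) {φ : MulAut X} (hφ : φ ∈ A) {B : Subgroup X}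
    (hB : ∀ a ∈ B, ∀ b ∈ B, Commute a b) (hi : ∀ b ∈ B, φ b ∈ B)
    (hf : ∀ b ∈ B, b ^ 2 = 1 → φ b = b) (b : X) : b ∈ B → φ b = b := by
  refine two_ind h.two (P := fun b => b ∈ B → φ b = b) (fun _ => map_one φ) (fun b ih hb => ?_) b
  refine h.chain hφ (hf _ (mul_mem (inv_mem hb) (hi b hb)) ?_)
  rw [(hB _ (inv_mem hb) _ (hi b hb)).mul_pow, ← map_pow, ih (pow_mem hb 2), inv_pow,
    inv_mul_cancel]

omit [Finite X] in
theorem cent_of_fix {φ : MulAut X} {B : Subgroup X} [hB : B.Normal] (hf : ∀ b ∈ B, φ b = b)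
    (x : X) : x⁻¹ * φ x ∈ centralizer (B : Set X) := mem_centralizer_iff.2 fun b hb => by
  have := hf _ (hB.conj_mem b hb x)
  rw [map_mul, map_mul, hf b hb, map_inv] at this
  calc b * (x⁻¹ * φ x) = x⁻¹ * (x * b * x⁻¹) * φ x := by group
    _ = _ := by rw [← this]; group

omit [Finite X] in
theorem le_center_of {B : Subgroup X} (h : centralizer (B : Set X) = ⊤) : B ≤ center X :=
  fun b hb => mem_center_iff.2 fun g => (mem_centralizer_iff.1 (h ▸ mem_top g) b hb).symm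

theorem Hyp.idx (h : Hyp A) {K : Subgroup X} (hK : Inv A K) (h2 : K.index ≤ 2) : K = ⊤ := by
  by_contra k
  have h1 := index_ne_zero_of_finite (H := K)
  have h3 := mt index_eq_one.1 k
  refine k (h.gen K fun φ hφ x => (mul_mem_iff_of_index_two (by omega)).2 ?_)
  rw [inv_mem_iff]
  exact ⟨hK φ hφ x, fun t => by simpa using hK _ (inv_mem hφ) _ t⟩

theorem Hyp.le_VV (h : Hyp A) {E : Subgroup X} [hE : E.Normal] (hi : Inv A E)
    (he : IsElementaryAbelian 2 E) : E ≤ VV X := by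
  obtain ⟨k, hk⟩ := IsPGroup.iff_card.1 (h.two.to_subgroup E)
  have h4 := h.no8 E hE he
  have h2 := index_centralizer_normal_le h.two k E hk
  have : k ≤ 2 := by
    rw [hk] at h4
    exact (Nat.pow_le_pow_iff_right (by norm_num)).1 (h4.trans_eq (by norm_num : 4 = 2 ^ 2))
  have := le_center_of (h.idx hi.cent (h2.trans (by interval_cases k <;> simp)))
  exact fun x hx => ⟨this hx, he.2 x hx⟩

theorem Hyp.omega (h : Hyp A) {B : Subgroup X} [hB : B.Normal] (hi : Inv A B)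
    (hc : ∀ a ∈ B, ∀ b ∈ B, Commute a b) {b : X} (hb : b ∈ B) (h2 : b ^ 2 = 1) : b ∈ VV X := by
  let E : Subgroup X :=
    { carrier := {x | x ∈ B ∧ x ^ 2 = 1}
      one_mem' := ⟨one_mem _, one_pow _⟩
      mul_mem' := fun {a b} ha hb => ⟨mul_mem ha.1 hb.1, by
        rw [(hc _ ha.1 _ hb.1).mul_pow, ha.2, hb.2, one_mul]⟩
      inv_mem' := fun ha => ⟨inv_mem ha.1, by rw [inv_pow, ha.2, inv_one]⟩ }
  have : E.Normal := ⟨fun n hn g => ⟨hB.conj_mem n hn.1 g, by rw [conj_pow, hn.2]; group⟩⟩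
  exact h.le_VV (E := E) (fun φ hφ x hx => ⟨hi φ hφ x hx.1, by rw [← map_pow, hx.2, map_one]⟩)
    ⟨⟨⟨fun a b => Subtype.ext (hc _ a.2.1 _ b.2.1)⟩⟩, fun a ha => ha.2⟩ ⟨hb, h2⟩

theorem Hyp.mem_of_ab (h : Hyp A) {N : Subgroup X} (hN : commutator X ≤ N) {x : X}
    (hx : ∀ φ ∈ A, x⁻¹ * φ x ∈ N) : x ∈ N := by
  classical
  have := Fintype.ofFinite A
  let T : X →* Abelianization X := ∏ φ : A, Abelianization.of.comp (φ.1 : X →* X)
  have hT : ∀ y, T y = ∏ φ : A, Abelianization.of (φ.1 y) := fun y => by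
    simp [T, MonoidHom.finsetProd_apply]
  have h1 : T.ker = ⊤ := h.gen _ fun ψ hψ y => by
    rw [MonoidHom.mem_ker, map_mul, map_inv, inv_mul_eq_one, hT, hT]
    exact (Fintype.prod_equiv (Equiv.mulRight ⟨ψ, hψ⟩) _ _ fun φ => by simp).symm
  have h2 : T x = 1 := (h1 ▸ mem_top x : x ∈ T.ker)
  have h3 : ∏ φ : A, Abelianization.of (x⁻¹ * φ.1 x) ∈ N.map Abelianization.of :=
    prod_mem fun φ _ => mem_map_of_mem _ (hx _ φ.2)
  simp only [map_mul, Finset.prod_mul_distrib, ← hT, h2, Finset.prod_const, mul_one,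
    Finset.card_univ, ← map_pow] at h3
  rw [← mem_comap, comap_map_eq, Abelianization.ker_of, sup_eq_left.2 hN, inv_pow, inv_mem_iff,
    ← Nat.card_eq_fintype_card] at h3
  exact mem_of_pow_odd h.two h.odd h3

theorem Hyp.card_VV (h : Hyp A) : Nat.card (VV X) ≤ 4 :=
  h.no8 _ inferInstance ⟨⟨⟨fun a b => Subtype.ext (VV.comm a.2 b)⟩⟩, fun _ ha => ha.2⟩

theorem Hyp.mem_VV (h : Hyp A) (h4 : Nat.card (VV X) = 4) {t : X} (ht : t ^ 2 = 1)
    (hc : ∀ g, ⁅t, g⁆ ∈ VV X) : t ∈ VV X := by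
  have hcen : t ∈ centralizer (VV X : Set X) := mem_centralizer_iff.2 fun v hv => VV.comm hv t
  have : IsMulCommutative (VV X) := ⟨⟨fun a b => Subtype.ext (VV.comm a.2 b)⟩⟩
  have hn : (VV X ⊔ zpowers t).Normal := normal_sup_zpowers hc
  have := h.no8 _ hn ⟨isMulCommutative_sup_zpowers hcen, fun a ha => by
    obtain ⟨v, hv, _, ⟨k, rfl⟩, rfl⟩ := mem_sup_of_normal_left.1 ha
    rw [(VV.comm hv _).mul_pow, hv.2, one_mul, ← zpow_natCast, ← zpow_mul, mul_comm, zpow_mul,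
      zpow_natCast, ht, one_zpow]⟩
  rw [eq_of_le_of_card_ge le_sup_left (this.trans h4.ge)]
  exact mem_sup_right (mem_zpowers t)

end Cfsg.Agent.Scn
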