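import Cfsg.Agent.Lib.Scn.A

set_option autoImplicit false

namespace Cfsg.Agent.Scn

open Subgroup Cfsg.Agent.Lib.PGroup
open scoped commutatorElement IsMulCommutative

theorem comm_mul_right {G : Type*} [Group G] (x y u : G) (h : ⁅x, u⁆ ∈ center G) :
    ⁅x, y * u⁆ = ⁅x, y⁆ * ⁅x, u⁆ := by
  have := mem_center_iff.1 h y
  calc ⁅x, y * u⁆ = ⁅x, y⁆ * (y * ⁅x, u⁆) * y⁻¹ := by simp only [commutatorElement_def]; group
    _ = _ := by rw [this]; group

theorem comm_mul_left {G : Type*} [Group G] (x y u : G) (h : ⁅y, u⁆ ∈ center G) :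
    ⁅x * y, u⁆ = ⁅y, u⁆ * ⁅x, u⁆ := by
  have := mem_center_iff.1 h x
  calc ⁅x * y, u⁆ = (x * ⁅y, u⁆) * x⁻¹ * ⁅x, u⁆ := by simp only [commutatorElement_def]; group
    _ = _ := by rw [this]; group

theorem comm_der {G : Type*} [Group G] {a b : G} (ha : ∀ g, ⁅a, g⁆ ∈ center G)
    (hb : b ∈ commutator G) : Commute a b :=
  let f : G →* center G := MonoidHom.mk' (fun g => ⟨_, ha g⟩) fun _ g' =>
    Subtype.ext (comm_mul_right _ _ _ (ha g'))
  commutatorElement_eq_one_iff_commute.1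
    (congrArg Subtype.val (Abelianization.commutator_subset_ker f hb))

theorem c2 {G : Type*} [Group G] [Finite G] (hc : ∀ x y : G, ⁅x, y⁆ ∈ center G)
    (h4 : Nat.card (VV G) ≤ 4) (hsq : ∀ v : G, v ^ 2 = 1 → v ∈ center G ∧ ∃ z ∈ center G, z ^ 2 = v)
    (f : G →* G) (hf : ∀ v : G, v ^ 2 = 1 → v ≠ 1 → f v ≠ v ∧ f v ≠ 1) (m : ℕ)
    (hm : ∀ x y : G, (⁅x, y⁆ ^ m) ^ 2 = 1) (x y : G) : ⁅x, y⁆ ^ m = 1 := by
  have cc : ∀ x y g : G, Commute ⁅x, y⁆ g := fun x y => commute_of_mem_center (hc x y)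
  have hz : ∀ x : G, x ^ (m * 2) ∈ center G := fun x => mem_center_iff.2 fun g => by
    rw [eq_comm, ← commutatorElement_eq_one_iff_mul_comm, commutatorElement_pow_left (cc _ _ _),
      pow_mul, hm]
  let S := (powMonoidHom 2 : center G →* center G).range
  have hS : S.index ≤ 4 := by
    rw [index_range]
    refine le_trans (Nat.card_le_card_of_injective (β := VV G)
      (fun z => ⟨z.1.1, z.1.2, congrArg Subtype.val z.2⟩) fun a b k => ?_) h4
    exact Subtype.ext (Subtype.ext (Subtype.mk.inj k))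
  let σ : G →* center G ⧸ S := MonoidHom.mk' (fun x => QuotientGroup.mk ⟨_, hz x⟩) fun a b => by
    rw [← QuotientGroup.mk_mul, eq_comm, QuotientGroup.eq]
    obtain ⟨-, z, h1, h2⟩ := hsq _ (hm a b)
    refine ⟨(⟨z, h1⟩ ^ (m * 2 - 1))⁻¹, Subtype.ext ?_⟩
    have : (m * 2).choose 2 = m * (m * 2 - 1) := by
      rw [Nat.choose_two_right, mul_right_comm, Nat.mul_div_cancel _ two_pos]
    simp only [powMonoidHom_apply, coe_mul, coe_inv, coe_pow]
    rw [mul_pow_eq_commutator (cc _ _ _) (cc _ _ _), this, pow_mul ⁅a, b⁆, ← h2, inv_mul_cancel_left,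
      inv_pow, ← pow_mul, ← pow_mul, mul_comm]
  have hK : σ.ker.index ≤ 4 := by
    rw [index_ker]; exact (card_le_card_group _).trans hS
  have k1 : ∀ x ∈ σ.ker, ∀ y : G, ⁅x, y⁆ ^ m = 1 := by
    intro x hx y
    obtain ⟨z, hz'⟩ := (QuotientGroup.eq_one_iff _).1 hx
    have e : z.1 ^ 2 = x ^ (m * 2) := congrArg Subtype.val hz'
    have h1 := (hsq (x ^ m * z.1⁻¹) (by
      rw [(commute_of_mem_center (inv_mem z.2) _).symm.mul_pow, inv_pow, e, pow_mul,
        mul_inv_cancel])).1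
    rw [mul_mem_cancel_right (inv_mem z.2)] at h1
    rw [← commutatorElement_pow_left (cc _ _ _), commutatorElement_eq_one_iff_mul_comm]
    exact (mem_center_iff.1 h1 y).symm
  have sym : ∀ x y : G, ⁅x, y⁆ ^ m = ⁅y, x⁆ ^ m := fun x y => by
    rw [← commutatorElement_inv x y, inv_pow, eq_comm, inv_eq_iff_mul_eq_one, ← sq, hm]
  have mul : ∀ x y u : G, ⁅x, y * u⁆ ^ m = ⁅x, y⁆ ^ m * ⁅x, u⁆ ^ m := fun x y u => by
    rw [comm_mul_right _ _ _ (hc _ _), (cc _ _ _).mul_pow]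
  have k2 : ∀ x y u : G, ⁅x, y⁆ ^ m ≠ 1 → ⁅x, u⁆ ^ m ≠ 1 → ⁅x, y⁆ ^ m = ⁅x, u⁆ ^ m := by
    intro x y u h1 h2
    let L := (MonoidHom.mk' (fun y => ⁅x, y⁆ ^ m) (mul x)).ker
    have hL : σ.ker ≤ L := fun g hg => (sym x g).trans (k1 g hg x)
    have e := relIndex_mul_index hL
    have a1 : σ.ker.relIndex L ≠ 1 := fun t =>
      h1 (k1 x (relIndex_eq_one.1 t (show ⁅x, x⁆ ^ m = 1 by simp)) y)
    have a2 : L.index ≠ 1 := fun t => h1 (index_eq_one.1 t ▸ mem_top y : y ∈ L)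
    have a3 := index_ne_zero_of_finite (H := σ.ker)
    have a4 : L.index = 2 := by
      rw [← e] at hK a3
      have := left_ne_zero_of_mul a3
      have := right_ne_zero_of_mul a3
      nlinarith [show 2 ≤ σ.ker.relIndex L by omega, show 2 ≤ L.index by omega]
    have : ⁅x, y * u⁆ ^ m = 1 := (mul_mem_iff_of_index_two a4 (a := y) (b := u)).2 (iff_of_false h1 h2)
    rw [mul, mul_eq_one_iff_eq_inv] at this
    rw [this, inv_eq_iff_mul_eq_one, ← sq, hm]
  by_contra h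
  obtain ⟨f1, f2⟩ := hf _ (hm x y) h
  rw [map_pow, map_commutatorElement] at f1 f2
  have a1 : ⁅y, f x⁆ ^ m = 1 := by
    by_contra t
    exact f1 (by rw [k2 _ _ y f2 (sym _ _ ▸ t), ← sym, k2 y _ x t (sym _ _ ▸ h), sym])
  have a2 : ⁅f y, x⁆ ^ m = 1 := by
    by_contra t
    exact f1 (by rw [sym, k2 _ _ x (sym _ _ ▸ f2) t, sym, k2 x _ y (sym _ _ ▸ t) h])
  have b1 : ⁅x * f x, y⁆ ^ m = ⁅x, y⁆ ^ m := by rw [sym, mul, a1, mul_one, sym]
  have b2 : ⁅x * f x, f y⁆ ^ m = ⁅f x, f y⁆ ^ m := by rw [sym, mul, a2, one_mul, sym]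
  exact f1 (by rw [← b1, ← b2]; exact k2 _ _ _ (b2 ▸ f2) (b1 ▸ h))

variable {X : Type*} [Group X] [Finite X] {A : Subgroup (MulAut X)}

/-- the conclusion of the first part -/
structure Core (X : Type*) [Group X] : Prop where
  cen : center X ≤ VV X
  comm : ∀ x y : X, ⁅x, y⁆ ∈ VV X
  sq : ∀ x : X, x ^ 2 ∈ VV X
  der : VV X ≤ commutator X

omit [Finite X] in
theorem inv_commutator (φ : MulAut X) {x : X} (hx : x ∈ commutator X) : φ x ∈ commutator X :=
  (characteristic_iff_le_comap.1 inferInstance φ) hx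

theorem Hyp.case1 (h : Hyp A) (hV : ∀ φ ∈ A, ∀ v ∈ VV X, φ v = v) : Core X := by
  have fix : ∀ B : Subgroup X, B.Normal → Inv A B → (∀ a ∈ B, ∀ b ∈ B, Commute a b) →
      ∀ φ ∈ A, ∀ b ∈ B, φ b = b := fun B _ hi hc φ hφ =>
    h.fix_ab hφ hc (hi φ hφ) fun b hb h2 => hV φ hφ b (h.omega hi hc hb h2)
  have cen : ∀ B : Subgroup X, B.Normal → Inv A B → (∀ a ∈ B, ∀ b ∈ B, Commute a b) →
      B ≤ center X := fun B _ hi hc =>
    le_center_of (h.gen _ fun φ hφ => cent_of_fix (fix B ‹_› hi hc φ hφ))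
  have h1 : commutator X ≤ center X := by
    by_contra k
    obtain ⟨x, x1, x2, -, x3⟩ := exists_central_mod h.two k
    let B := Subgroup.upperCentralSeries X 2 ⊓ commutator X
    have hB : ∀ b, b ∈ Subgroup.upperCentralSeries X 2 ↔ ∀ g, ⁅b, g⁆ ∈ center X := fun b => by
      rw [Subgroup.mem_upperCentralSeries_succ_iff, Subgroup.upperCentralSeries_one]
    exact x2 (cen B inferInstance (fun φ _ b hb => ⟨(characteristic_iff_le_comap.1 inferInstance φ)
      hb.1, inv_commutator φ hb.2⟩) (fun a ha b hb => comm_der ((hB a).1 ha.1) hb.2)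
      ⟨(hB x).2 x3, x1⟩)
  have cc : ∀ x y g : X, Commute ⁅x, y⁆ g := fun x y =>
    commute_of_mem_center (commutatorElement_mem_center h1 x y)
  have h2 : ∀ k, (∀ x : X, x ^ 2 ^ (k + 1) ∈ center X) → ∀ x : X, x ^ 2 ∈ center X := by
    intro k
    induction k with
    | zero => exact id
    | succ k ih =>
    have iv : ∀ φ : MulAut X, closure (Set.range fun x : X => x ^ 2 ^ (k + 1)) ≤
        comap φ.toMonoidHom (closure (Set.range fun x : X => x ^ 2 ^ (k + 1))) := fun φ => by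
      rw [closure_le]
      rintro _ ⟨y, rfl⟩
      exact subset_closure ⟨_, (map_pow φ y _).symm⟩
    refine fun hk => ih fun x => cen (closure (Set.range fun x : X => x ^ 2 ^ (k + 1)))
      ⟨fun n hn g => iv (MulAut.conj g) hn⟩ (fun φ _ n hn => iv φ hn) ?_ (subset_closure ⟨x, rfl⟩)
    · intro a ha b hb
      refine closure_induction₂ (p := fun a b _ _ => Commute a b) ?_ (fun _ _ => Commute.one_left _)
        (fun _ _ => Commute.one_right _) (fun _ _ _ _ _ _ => Commute.mul_left)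
        (fun _ _ _ _ _ _ => Commute.mul_right) (fun _ _ _ _ => Commute.inv_left)
        (fun _ _ _ _ => Commute.inv_right) ha hb
      rintro _ _ ⟨a, rfl⟩ ⟨b, rfl⟩
      rw [← commutatorElement_eq_one_iff_commute, commutatorElement_pow_right (cc _ _ _),
        ← commutatorElement_pow_left (cc _ _ _), commutatorElement_eq_one_iff_commute, ← pow_mul,
        pow_succ 2 k, ← mul_assoc, mul_right_comm, ← pow_succ, pow_mul]
      exact commute_of_mem_center (pow_mem (hk a) _) b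
  obtain ⟨k, hk⟩ := IsPGroup.iff_card.1 h.two
  have h3 := h2 k fun x => by
    rw [pow_succ, pow_mul, ← hk, pow_card_eq_one', one_pow]; exact one_mem _
  have h4 : center X ≤ commutator X := fun z hz => h.mem_of_ab le_rfl fun φ hφ => by
    rw [fix (center X) inferInstance (fun φ _ _ => map_center φ)
      (fun a ha b _ => commute_of_mem_center ha b) φ hφ z hz, inv_mul_cancel]
    exact one_mem _
  have h5 : center X ≤ VV X := fun z hz => ⟨hz, pow_eq_one_of_mem_commutator h1 h3 (h4 hz)⟩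
  exact ⟨h5, fun x y => h5 (commutatorElement_mem_center h1 x y), fun x => h5 (h3 x),
    fun v hv => h4 hv.1⟩

end Cfsg.Agent.Scn
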