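import Cfsg.Agent.Lib.Scn.B

set_option autoImplicit false

namespace Cfsg.Agent.Scn

open Subgroup Cfsg.Agent.Lib.PGroup
open scoped commutatorElement IsMulCommutative

variable {X : Type*} [Group X]

/-- the preimage of `Ω₁(Z(X/N))` -/
def OZ (N : Subgroup X) [N.Normal] : Subgroup X := (VV (X ⧸ N)).comap (QuotientGroup.mk' N)

instance (N : Subgroup X) [N.Normal] : (OZ N).Normal := Normal.comap inferInstance _

theorem mem_OZ {N : Subgroup X} [N.Normal] {x : X} : x ∈ OZ N ↔ x ^ 2 ∈ N ∧ ∀ g, ⁅x, g⁆ ∈ N := by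
  change ((x : X ⧸ N) ∈ center _ ∧ (x : X ⧸ N) ^ 2 = 1) ↔ _
  rw [and_comm, ← QuotientGroup.mk_pow, QuotientGroup.eq_one_iff, mem_center_iff,
    QuotientGroup.forall_mk]
  refine and_congr_right fun _ => forall_congr' fun g => ?_
  rw [← QuotientGroup.eq_one_iff, ← QuotientGroup.mk'_apply N ⁅x, g⁆, map_commutatorElement,
    commutatorElement_eq_one_iff_mul_comm, eq_comm]
  rfl

theorem le_OZ {N : Subgroup X} [hN : N.Normal] : N ≤ OZ N := fun x hx =>
  mem_OZ.2 ⟨pow_mem hx 2, fun g => by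
    rw [commutatorElement_def, mul_assoc, mul_assoc, ← mul_assoc g]
    exact mul_mem hx (hN.conj_mem _ (inv_mem hx) g)⟩

variable {A : Subgroup (MulAut X)}

theorem Inv.oz {N : Subgroup X} [N.Normal] (h : Inv A N) : Inv A (OZ N) := fun φ hφ x hx => by
  obtain ⟨h1, h2⟩ := mem_OZ.1 hx
  refine mem_OZ.2 ⟨by rw [← map_pow]; exact h φ hφ _ h1, fun g => ?_⟩
  obtain ⟨g, rfl⟩ := φ.surjective g
  rw [← map_commutatorElement]
  exact h φ hφ _ (h2 g)

theorem inv_VV : Inv A (VV X) := fun φ _ _ => VV.map φ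

theorem VV.ne {a b : X} (hb : b ∈ VV X) (h : a ≠ b) : a * b ≠ 1 := fun k =>
  h (mul_right_cancel (k.trans (VV.mul_self hb).symm))

theorem engel [Finite X] {α : MulAut X} (h3 : ∀ x, α (α (α x)) = x) (hf : ∀ x, α x = x → x = 1) :
    (∀ x, Commute x (α x)) ∧ (∀ x, x * α x * α (α x) = 1) ∧
      ∀ y m : X, Commute y (m * y * m⁻¹) := by
  have sj : ∀ β : MulAut X, (∀ x, β x = x → x = 1) →
      Function.Surjective fun x => x * (β x)⁻¹ := fun β hβ =>
    Finite.surjective_of_injective fun x y k => by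
      have := hβ (y⁻¹ * x) (by
        rw [map_mul, map_inv]
        calc (β y)⁻¹ * β x = y⁻¹ * (y * (β y)⁻¹) * β x := by group
          _ = _ := by rw [← show x * (β x)⁻¹ = y * (β y)⁻¹ from k]; group)
      rw [inv_mul_eq_one.1 this]
  have hf2 : ∀ x, (α * α) x = x → x = 1 := fun x k => hf x (by
    conv_lhs => rw [← k]
    exact h3 x)
  have e1 : ∀ x, x * α x * α (α x) = 1 := fun x => by
    obtain ⟨y, rfl⟩ := sj α hf x
    simp [h3]
  have e2 : ∀ x, x * α (α x) * α x = 1 := fun x => by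
    obtain ⟨y, rfl⟩ := sj _ hf2 x
    simp [h3]
  have c1 : ∀ x, Commute x (α x) := fun x => by
    have := (e1 (α (α x))).trans (e2 (α (α x))).symm
    show x * α x = α x * x
    simpa [h3, mul_assoc] using this
  have c2 : ∀ x, Commute x ((α * α) x) := fun x => by
    have := (c1 (α (α x))).symm
    rwa [h3] at this
  have c3 : ∀ β : MulAut X, (∀ x, β x = x → x = 1) → (∀ x, Commute x (β x)) →
      ∀ y m, Commute y (m * β y * m⁻¹) := fun β hβ c y m => by
    obtain ⟨k, rfl⟩ := sj β hβ m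
    have := (c (k⁻¹ * y * k)).map (MulAut.conj k)
    simpa [mul_assoc] using this
  refine ⟨c1, e1, fun y m => ?_⟩
  have := ((c3 α hf c1 y m).mul_right (c3 _ hf2 c2 y m)).inv_right
  have e : y = (α y * α (α y))⁻¹ := by rw [eq_inv_iff_mul_eq_one, ← mul_assoc, e1]
  convert this using 1
  conv_lhs => rw [e]
  simp [mul_assoc]

variable [Finite X]

theorem Hyp.fix_all (h : Hyp A) {φ : MulAut X} (hφ : φ ∈ A) {v : X} (hv : v ∈ VV X) (h1 : v ≠ 1)
    (hf : φ v = v) {u : X} (hu : u ∈ VV X) : φ u = u := by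
  by_cases k1 : u = 1
  · rw [k1, map_one]
  by_cases k2 : v = u
  · exact k2 ▸ hf
  rcases four_cases h.card_VV hv hu (VV.map φ hu) h1 k1 k2 (VV.ne hu k2) with t | t | t | t
  · exact (k1 (φ.injective (t.trans (map_one φ).symm))).elim
  · exact (k2 (φ.injective (hf.trans t.symm))).elim
  · exact t
  · refine h.chain hφ ?_
    rw [t, (VV.comm hv u).eq, inv_mul_cancel_left, hf]

/-- the second case -/
structure Two (A : Subgroup (MulAut X)) (α : MulAut X) : Prop extends Hyp A where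
  mem : α ∈ A
  mv : ∃ v ∈ VV X, α v ≠ v

variable {α : MulAut X}

theorem Two.ne (h : Two A α) {v : X} (hv : v ∈ VV X) (h1 : v ≠ 1) : v ≠ α v := fun k =>
  h.mv.elim fun _ t => t.2 (h.fix_all h.mem hv h1 k.symm t.1)

theorem Two.cases (h : Two A α) {v c : X} (hv : v ∈ VV X) (h1 : v ≠ 1) (hc : c ∈ VV X) :
    c = 1 ∨ c = v ∨ c = α v ∨ c = v * α v :=
  four_cases h.card_VV hv (VV.map α hv) hc h1 ((map_ne_one_iff _ α.injective).2 h1) (h.ne hv h1)
    (VV.ne (VV.map α hv) (h.ne hv h1))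

theorem Two.card (h : Two A α) : Nat.card (VV X) = 4 := by
  obtain ⟨v, hv, k⟩ := h.mv
  have h1 : v ≠ 1 := fun t => k (by rw [t, map_one])
  have h2 := (map_ne_one_iff _ α.injective).2 h1
  have : ({1, v, α v} : Set X).ncard ≤ Nat.card (VV X) :=
    Set.ncard_le_ncard (t := (VV X : Set X)) (by
      rintro _ (rfl | rfl | rfl)
      exacts [one_mem _, hv, VV.map α hv]) (Set.toFinite _)
  rw [Set.ncard_insert_of_notMem (by simp [h1.symm, h2.symm]), Set.ncard_pair k.symm] at this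
  obtain ⟨n, hn⟩ := IsPGroup.iff_card.1 (h.two.to_subgroup (VV X))
  have h4 := h.card_VV
  rw [hn] at this h4 ⊢
  have : n < 3 := (Nat.pow_lt_pow_iff_right one_lt_two).1 (by omega)
  interval_cases n <;> omega

theorem Two.sq (h : Two A α) {v : X} (hv : v ∈ VV X) (h1 : v ≠ 1) : α (α v) = v * α v := by
  have h2 := (map_ne_one_iff _ α.injective).2 h1
  rcases h.cases hv h1 (VV.map α (VV.map α hv)) with t | t | t | t
  · exact ((map_ne_one_iff _ α.injective).2 h2 t).elim
  · refine (h.ne (mul_mem hv (VV.map α hv)) (VV.ne (VV.map α hv) (h.ne hv h1)) ?_).elim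
    rw [map_mul, t, (VV.comm hv _).eq]
  · exact (h.ne (VV.map α hv) h2 t.symm).elim
  · exact t

theorem Two.core (h : Two A α) (hna : ¬ IsMulCommutative X)
    (hW : ∀ w ∈ OZ (VV X), w ∈ centralizer (OZ (VV X) : Set X) → w ∈ VV X) : Core X := by
  have h1 : centralizer (OZ (VV X) : Set X) ≤ VV X := by
    by_contra k
    obtain ⟨x, x1, x2, x3, x4⟩ := exists_central_mod h.two k
    exact x2 (hW x (mem_OZ.2 ⟨x3, x4⟩) x1)
  have h2 : ∀ x y : X, ⁅x, y⁆ ∈ VV X := fun x y => h1 (mem_centralizer_iff.2 fun w hw =>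
    comm_der (fun g => ((mem_OZ.1 hw).2 g).1) (commutatorElement_mem_commutator x y))
  refine ⟨fun z hz => h1 (center_le_centralizer _ hz), h2, fun x => h1 (mem_centralizer_iff.2
    fun w _ => ?_), fun v hv => ?_⟩
  · rw [← commutatorElement_eq_one_iff_mul_comm, commutatorElement_pow_right (VV.comm (h2 _ _) _),
      (h2 _ _).2]
  · obtain ⟨x, y, k⟩ : ∃ x y : X, ⁅x, y⁆ ≠ 1 := by
      by_contra! k
      exact hna ⟨⟨fun a b => commutatorElement_eq_one_iff_mul_comm.1 (k a b)⟩⟩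
    have a1 := commutatorElement_mem_commutator x y
    have a2 := inv_commutator α a1
    rcases h.cases (h2 x y) k hv with rfl | rfl | rfl | rfl
    exacts [one_mem _, a1, a2, mul_mem a1 a2]

end Cfsg.Agent.Scn
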