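import Cfsg.Agent.Lib.Scn.C

set_option autoImplicit false

namespace Cfsg.Agent.Scn

open Subgroup Cfsg.Agent.Lib.PGroup
open scoped commutatorElement IsMulCommutative

variable {X : Type*} [Group X] [Finite X] {A : Subgroup (MulAut X)} {α : MulAut X}

/-- `W` is abelian and `B` is a maximal invariant normal abelian subgroup over it -/
structure Ab (A : Subgroup (MulAut X)) (α : MulAut X) (B : Subgroup X) : Prop extends Two A α where
  root : ∀ v ∈ VV X, ∃ w ∈ OZ (VV X), w ^ 2 = v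
  nrm : B.Normal
  inv : Inv A B
  ab : ∀ a ∈ B, ∀ b ∈ B, Commute a b
  le : OZ (VV X) ≤ B
  max : ∀ D : Subgroup X, D.Normal → Inv A D → (∀ a ∈ D, ∀ b ∈ D, Commute a b) → B ≤ D → D ≤ B

theorem Two.exists_ab (h : Two A α) {w : X} (hw : w ∈ OZ (VV X))
    (hc : w ∈ centralizer (OZ (VV X) : Set X)) (hV : w ∉ VV X) : ∃ B, Ab A α B := by
  have iW : Inv A (OZ (VV X)) := inv_VV.oz
  have h1 : w ^ 2 ≠ 1 := fun k => hV (h.mem_VV h.card k (mem_OZ.1 hw).2)
  have rt : ∀ v ∈ VV X, ∃ u ∈ OZ (VV X) ⊓ centralizer (OZ (VV X) : Set X), u ^ 2 = v := by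
    intro v hv
    have a1 := iW α h.mem w hw
    have a2 := iW.cent α h.mem w hc
    rcases h.cases (mem_OZ.1 hw).1 h1 hv with rfl | rfl | rfl | rfl
    · exact ⟨1, one_mem _, one_pow _⟩
    · exact ⟨w, ⟨hw, hc⟩, rfl⟩
    · exact ⟨α w, ⟨a1, a2⟩, (map_pow _ _ _).symm⟩
    · exact ⟨w * α w, ⟨mul_mem hw a1, mul_mem hc a2⟩, by
        rw [Commute.mul_pow (mem_centralizer_iff.1 a2 w hw), map_pow]⟩
  have ab : ∀ a ∈ OZ (VV X), ∀ b ∈ OZ (VV X), Commute a b := fun a ha b hb => by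
    obtain ⟨u, ⟨u1, u2⟩, u3⟩ := rt _ (mem_OZ.1 ha).1
    have := h.mem_VV h.card (t := a * u⁻¹) (by
      rw [Commute.mul_pow (Commute.inv_right (mem_centralizer_iff.1 u2 a ha)), inv_pow, u3,
        mul_inv_cancel]) (mem_OZ.1 (mul_mem ha (inv_mem u1))).2
    have := (VV.comm this b).mul_left (Commute.symm (mem_centralizer_iff.1 u2 b hb))
    rwa [inv_mul_cancel_right] at this
  obtain ⟨B, ⟨b1, b2, b3, b4⟩, hm⟩ := Set.Finite.exists_maximal (s := {B : Subgroup X | B.Normal ∧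
    Inv A B ∧ (∀ a ∈ B, ∀ b ∈ B, Commute a b) ∧ OZ (VV X) ≤ B}) (Set.toFinite _)
    ⟨_, inferInstance, iW, ab, le_rfl⟩
  exact ⟨B, h, fun v hv => (rt v hv).imp fun u k => ⟨k.1.1, k.2⟩, b1, b2, b3, b4,
    fun D d1 d2 d3 d4 => hm ⟨d1, d2, d3, b4.trans d4⟩ d4⟩

variable {B : Subgroup X}

theorem Ab.b1 (h : Ab A α B) {b : X} (hb : b ∈ B) (h2 : b ^ 2 = 1) : b ∈ VV X :=
  have := h.nrm
  h.omega h.inv h.ab hb h2

theorem Ab.b2 (h : Ab A α B) {b : X} (hb : b ∈ B) (h2 : b ^ 2 ∈ VV X) : b ∈ OZ (VV X) := by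
  obtain ⟨w, h1, h3⟩ := h.root _ h2
  have := le_OZ (h.b1 (mul_mem hb (inv_mem (h.le h1))) (by
    rw [(h.ab _ hb _ (inv_mem (h.le h1))).mul_pow, inv_pow, h3, mul_inv_cancel]))
  rwa [mul_mem_cancel_right (inv_mem h1)] at this

theorem Ab.inverted (h : Ab A α B) {x : X} (hx : x ∈ centralizer (OZ (VV X) : Set X)) (b : X) :
    b ∈ B → x * b * x⁻¹ = b⁻¹ → b ∈ VV X := by
  refine two_ind h.two (P := fun b => b ∈ B → x * b * x⁻¹ = b⁻¹ → b ∈ VV X)
    (fun _ _ => one_mem _) (fun b ih hb k => h.b1 hb ?_) b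
  have := h.b2 hb (ih (pow_mem hb 2) (by rw [← conj_pow, k, inv_pow]))
  rw [← mem_centralizer_iff.1 hx b this, mul_inv_cancel_right] at k
  rw [sq, mul_eq_one_iff_eq_inv, ← k]

theorem Ab.cent_le (h : Ab A α B) : centralizer (OZ (VV X) : Set X) ≤ B := by
  have := h.nrm
  have iW : Inv A (OZ (VV X)) := inv_VV.oz
  by_contra k
  obtain ⟨x, x1, x2, x3⟩ := exists_central_mod h.two k
  let D := centralizer (OZ (VV X) : Set X) ⊓ OZ B
  have iD : Inv A D := fun φ hφ y hy => ⟨iW.cent φ hφ y hy.1, h.inv.oz φ hφ y hy.2⟩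
  have BD : B ≤ D := le_inf (fun b hb => mem_centralizer_iff.2 fun w hw => h.ab _ (h.le hw) _ hb)
    le_OZ
  have d2 : ∀ x ∈ D, ∀ b ∈ B, ⁅x, b⁆ ∈ VV X := fun x hx b hb =>
    h.inverted hx.1 _ ((mem_OZ.1 hx.2).2 b) (by
      have := (h.ab _ (mem_OZ.1 hx.2).1 _ hb).eq
      calc x * ⁅x, b⁆ * x⁻¹ = x ^ 2 * b * x⁻¹ * b⁻¹ * x⁻¹ := by
            simp only [commutatorElement_def, sq]; group
        _ = _ := by rw [this]; simp only [commutatorElement_def, sq]; group)
  have d3 : ∀ t ∈ D, t ^ 2 = 1 → t ∈ VV X := fun t ht h2 => h.mem_VV h.card h2 fun g =>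
    h.inverted ht.1 _ ((mem_OZ.1 ht.2).2 g) (by
      have e : t⁻¹ = t := by rw [inv_eq_iff_mul_eq_one, ← sq, h2]
      calc t * ⁅t, g⁆ * t⁻¹ = t ^ 2 * g * t⁻¹ * g⁻¹ * t⁻¹ := by
            simp only [commutatorElement_def, sq]; group
        _ = _ := by rw [h2, e, commutatorElement_inv, commutatorElement_def, e, one_mul])
  have d4 : ∀ x ∈ D, ∀ y ∈ D, ⁅x, y⁆ ∈ OZ (VV X) := fun x hx y hy => by
    have c := (mem_OZ.1 hx.2).2 y
    refine h.b2 c ?_
    have e : ⁅x, y⁆ ^ 2 = ⁅x, ⁅x, y⁆⁆⁻¹ * ⁅y, x ^ 2⁆⁻¹ := by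
      simp only [commutatorElement_def, sq]; group
    rw [e]
    exact mul_mem (inv_mem (d2 x hx _ c)) (inv_mem (d2 y hy _ (mem_OZ.1 hx.2).1))
  have zc : ∀ z : D, z.1 ∈ OZ (VV X) → z ∈ center D := fun z hz => mem_center_iff.2 fun g =>
    Subtype.ext (mem_centralizer_iff.1 g.2.1 _ hz).symm
  let f : D →* D := (α.toMonoidHom.comp D.subtype).codRestrict D fun y => iD α h.mem _ y.2
  have c := c2 (G := D) (fun x y => zc _ (d4 _ x.2 _ y.2))
    (le_trans (Nat.card_le_card_of_injective (β := VV X)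
      (fun z => ⟨z.1.1, d3 _ z.1.2 (congrArg Subtype.val z.2.2)⟩) fun a b k =>
        Subtype.ext (Subtype.ext (Subtype.mk.inj k))) h.card_VV)
    (fun v hv => by
      have a1 := d3 _ v.2 (congrArg Subtype.val hv)
      obtain ⟨w, w1, w2⟩ := h.root _ a1
      exact ⟨zc _ (le_OZ a1), ⟨w, BD (h.le w1)⟩, zc _ w1, Subtype.ext w2⟩) f
    (fun v hv h1 => by
      have a1 := d3 _ v.2 (congrArg Subtype.val hv)
      have a2 : v.1 ≠ 1 := fun t => h1 (Subtype.ext t)
      exact ⟨fun t => h.ne a1 a2 (congrArg Subtype.val t).symm,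
        fun t => (map_ne_one_iff _ α.injective).2 a2 (congrArg Subtype.val t)⟩)
  have c1 := c 1 fun x y => by
    rw [pow_one]
    exact c 2 (fun x y => Subtype.ext (mem_OZ.1 (d4 _ x.2 _ y.2)).1.2) x y
  refine x2 (h.max D inferInstance iD (fun a ha b hb => ?_) BD ⟨x1, mem_OZ.2 x3⟩)
  have := c1 ⟨a, ha⟩ ⟨b, hb⟩
  rw [pow_one, commutatorElement_eq_one_iff_mul_comm] at this
  exact congrArg Subtype.val this

theorem Ab.triv (h : Ab A α B) {φ : MulAut X} (hφ : φ ∈ A) {v : X} (hv : v ∈ VV X) (h1 : v ≠ 1)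
    (hf : φ v = v) (x : X) : φ x = x := by
  have := h.nrm
  have k := h.fix_ab hφ h.ab (h.inv φ hφ) fun b hb h2 => h.fix_all hφ hv h1 hf (h.b1 hb h2)
  exact h.chain hφ (k _ (h.cent_le (centralizer_le h.le (cent_of_fix k x))))

theorem Ab.false (h : Ab A α B) (hna : ¬ IsMulCommutative X) : False := by
  have := h.nrm
  have iW : Inv A (OZ (VV X)) := inv_VV.oz
  have wc : ∀ w ∈ OZ (VV X), ∀ g, ⁅w, g⁆ ∈ center X := fun w hw g => ((mem_OZ.1 hw).2 g).1
  have der : commutator X ≤ centralizer (OZ (VV X) : Set X) := fun g hg =>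
    mem_centralizer_iff.2 fun w hw => comm_der (wc w hw) hg
  obtain ⟨v, hv, k⟩ := h.mv
  have h1 : v ≠ 1 := fun t => k (by rw [t, map_one])
  have h3 : ∀ x, α (α (α x)) = x := h.triv (mul_mem h.mem (mul_mem h.mem h.mem)) hv h1 (by
    change α (α (α v)) = v
    rw [h.sq hv h1, map_mul, h.sq hv h1, (VV.comm hv _).eq, ← mul_assoc,
      VV.mul_self (VV.map α hv), one_mul])
  have hf : ∀ x, α x = x → x = 1 := fun x hx => by
    have : x ∈ B := h.cent_le (h.mem_of_ab der fun φ hφ => by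
      suffices φ x = x by rw [this, inv_mul_cancel]; exact one_mem _
      rcases h.cases hv h1 (VV.map φ hv) with t | t | t | t
      · exact ((map_ne_one_iff _ φ.injective).2 h1 t).elim
      · exact h.triv hφ hv h1 t x
      · have := h.triv (mul_mem (inv_mem h.mem) hφ) hv h1 (by simp [t]) x
        rw [MulAut.mul_apply, MulAut.inv_apply, MulEquiv.symm_apply_eq, hx] at this
        exact this
      · have := h.triv (mul_mem h.mem hφ) hv h1 (by rw [MulAut.mul_apply, t, ← h.sq hv h1, h3]) x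
        exact α.injective (this.trans hx.symm))
    revert hx this
    refine two_ind h.two (P := fun x => α x = x → x ∈ B → x = 1) (fun _ _ => rfl)
      (fun b ih hx hb => ?_) x
    by_contra t
    exact h.ne (h.b1 hb (ih (by rw [map_pow, hx]) (pow_mem hb 2))) t hx.symm
  obtain ⟨e1, e2, e3⟩ := engel h3 hf
  have sqB : ∀ x : X, x ^ 2 ∈ B := fun x => h.cent_le (mem_centralizer_iff.2 fun w hw => by
    rw [← commutatorElement_eq_one_iff_mul_comm,
      commutatorElement_pow_right (commute_of_mem_center (wc w hw x) _), ((mem_OZ.1 hw).2 x).2])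
  have BX : ∀ b ∈ B, ∀ x, ⁅x, b⁆ ∈ VV X := fun b hb x =>
    h.b1 (h.cent_le (der (commutatorElement_mem_commutator x b))) (by
      have : Commute ⁅x, b⁆ x := by
        rw [commutatorElement_def, mul_assoc, mul_assoc, ← mul_assoc b]
        refine (Commute.refl x).mul_left ?_
        simpa [mul_assoc] using (e3 x b).inv_right.symm
      rw [← commutatorElement_pow_left this, commutatorElement_eq_one_iff_commute]
      exact h.ab _ (sqB x) _ hb)
  have lin : ∀ w ∈ OZ (VV X), ∀ x, ⁅w, α x⁆ = ⁅α w, x⁆ := fun w hw x => by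
    have a1 := (e1 (x * w)).eq
    have a2 := mem_center_iff.1 (wc w hw (α x))
    have a3 := mem_center_iff.1 (wc _ (iW α h.mem w hw) x)
    rw [map_mul] at a1
    refine mul_right_cancel (b := x * α x * (w * α w)) ?_
    calc ⁅w, α x⁆ * (x * α x * (w * α w)) = (⁅w, α x⁆ * x) * α x * (w * α w) := by group
      _ = x * w * (α x * α w) := by rw [← a2, commutatorElement_def]; group
      _ = α x * ⁅α w, x⁆ * x * (α w * w) := by rw [a1, commutatorElement_def]; group
      _ = _ := by rw [a3, (e1 x).eq, (e1 w).eq]; group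
  have cl : ∀ w ∈ OZ (VV X), w ∉ VV X → ∀ x, ⁅w, x⁆ = 1 → x ∈ B := fun w hw hV x hx => by
    have w1 := iW α h.mem w hw
    have a1 : Commute w x := commutatorElement_eq_one_iff_commute.1 hx
    have a2 : Commute (α (α w)) x := by
      rw [← commutatorElement_eq_one_iff_commute, ← lin _ w1, ← map_commutatorElement, hx, map_one]
    have a3 : Commute (α w) x := by
      have := (a2.mul_left a1).inv_left
      rwa [show (α (α w) * w)⁻¹ = α w by
        rw [inv_eq_iff_mul_eq_one]; simpa [h3, ← mul_assoc] using e2 (α (α w))] at this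
    have w2 : w ^ 2 ≠ 1 := fun t => hV (h.b1 (h.le hw) t)
    refine h.cent_le (mem_centralizer_iff.2 fun u hu => ?_)
    have key : ∀ s ∈ OZ (VV X), Commute s x → u ^ 2 = s ^ 2 → Commute u x := fun s hs c e => by
      have := (VV.comm (h.b1 (b := u * s⁻¹) (h.le (mul_mem hu (inv_mem hs))) (by
        rw [(h.ab _ (h.le hu) _ (h.le (inv_mem hs))).mul_pow, inv_pow, e, mul_inv_cancel])) x).mul_left c
      rwa [inv_mul_cancel_right] at this
    rcases h.cases (mem_OZ.1 hw).1 w2 (mem_OZ.1 hu).1 with t | t | t | t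
    · exact key 1 (one_mem _) (Commute.one_left _) (by rw [t, one_pow])
    · exact key w hw a1 t
    · exact key _ w1 a3 (by rw [t, map_pow])
    · exact key _ (mul_mem hw w1) (a1.mul_left a3) (by rw [t, (e1 w).mul_pow, map_pow])
  have nB : ¬ ∀ x, x ∈ B := fun t => hna ⟨⟨fun a b => h.ab _ (t a) _ (t b)⟩⟩
  obtain ⟨w, hw, hw2⟩ := h.root v hv
  have hV : w ∉ VV X := fun t => h1 (hw2 ▸ t.2)
  have XX : ∀ x y : X, ⁅x, y⁆ ∈ VV X := fun x y => by
    by_cases hx : x ∈ B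
    · rw [← commutatorElement_inv]; exact inv_mem (BX x hx y)
    have iB : ∀ g, α g ∈ B → g ∈ B := fun g t => h3 g ▸ h.inv α h.mem _ (h.inv α h.mem _ t)
    have m := (mem_OZ.1 hw).2
    have key : ∀ s, Commute x s → ⁅w, y⁆ = ⁅w, s⁆ → ⁅x, y⁆ ∈ VV X := fun s c e => by
      have a1 := cl w hw hV (s⁻¹ * y) (by
        rw [← mul_right_inj ⁅w, s⁆, ← comm_mul_right _ _ _ (wc w hw _), mul_inv_cancel_left, e,
          mul_one])
      have := comm_mul_right x s _ (BX _ a1 x).1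
      rw [mul_inv_cancel_left, commutatorElement_eq_one_iff_commute.2 c, one_mul] at this
      exact this ▸ BX _ a1 x
    have n3 : ⁅w, x⁆ * ⁅w, α x⁆ ≠ 1 := fun t => hx (iB _ (iB _ (by
      rw [← comm_mul_right _ _ _ (wc w hw _)] at t
      exact (eq_inv_of_mul_eq_one_right (e2 x)) ▸ inv_mem (cl w hw hV _ t))))
    rcases four_cases h.card_VV (m x) (m (α x)) (m y) (fun t => hx (cl w hw hV _ t))
      (fun t => hx (iB _ (cl w hw hV _ t))) (fun t => n3 (t ▸ VV.mul_self (m x))) n3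
      with t | t | t | t
    · exact key 1 (Commute.one_right _) (by simpa using t)
    · exact key x (Commute.refl _) t
    · exact key _ (e1 x) t
    · exact key _ ((Commute.refl x).mul_right (e1 x)) (by rw [t, comm_mul_right _ _ _ (wc w hw _)])
  refine nB fun x => h.le (two_ind h.two (P := (· ∈ OZ (VV X))) (one_mem _) (fun y hy => ?_) x)
  refine mem_OZ.2 ⟨by_contra fun t => nB fun g => cl _ hy t g ?_, XX y⟩
  rw [commutatorElement_pow_left (VV.comm (XX _ _) _), (XX _ _).2]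

theorem Hyp.core (h : Hyp A) (hna : ¬ IsMulCommutative X) : Core X := by
  by_cases k : ∀ φ ∈ A, ∀ v ∈ VV X, φ v = v
  · exact h.case1 k
  push Not at k
  obtain ⟨α, k1, k2⟩ := k
  have t : Two A α := ⟨h, k1, k2⟩
  refine t.core hna fun w w1 w2 => by_contra fun w3 => ?_
  exact (t.exists_ab w1 w2 w3).elim fun B k => k.false hna

end Cfsg.Agent.Scn
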