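import Cfsg.Agent.Lib.Scn.D

set_option autoImplicit false

namespace Cfsg.Agent.Scn

open Subgroup Cfsg.Agent.Lib.PGroup
open scoped commutatorElement IsMulCommutative

variable {X : Type*} [Group X] [Finite X] {A : Subgroup (MulAut X)}

omit [Finite X] in
theorem Core.der_le (c : Core X) : commutator X ≤ VV X := commutator_le.2 fun x _ y _ => c.comm x y

theorem Core.special (c : Core X) (h : IsPGroup 2 X) : IsSpecial 2 X :=
  ⟨h, le_antisymm ((frattini_le_iff h).2 ⟨fun _ k => (c.der_le k).1, fun x => (c.sq x).1⟩)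
    (c.cen.trans (c.der.trans (commutator_le_frattini h))),
    le_antisymm (fun _ k => (c.der_le k).1) (c.cen.trans c.der)⟩

theorem Core.card_sup (c : Core X) {N : Subgroup X} (h : VV X ≤ N) {x : X} (hx : x ∉ N) :
    Nat.card (N ⊔ zpowers x : Subgroup X) = Nat.card N * 2 :=
  have := Normal.of_commutator_le X (c.der_le.trans h)
  card_sup_zpowers (by rw [normalizer_eq_top]; trivial) hx (h (c.sq x))

omit [Finite X] in
/-- the commutator map -/
def Core.hom (c : Core X) (x : X) : X →* X :=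
  MonoidHom.mk' (fun y => ⁅x, y⁆) fun _ _ => comm_mul_right _ _ _ (c.comm _ _).1

theorem card_inv : Nat.card {x : X // orderOf x = 2} + 1 = invCount (⊤ : Subgroup X) := by
  rw [invCount, show {g : X | g ∈ (⊤ : Subgroup X) ∧ g ^ 2 = 1} = insert 1 {x | orderOf x = 2} from
    Set.ext fun g => ⟨fun k => or_iff_not_imp_left.2 (orderOf_eq_prime k.2), by
      rintro (rfl | k)
      exacts [⟨trivial, one_pow _⟩, ⟨trivial, (show orderOf g = 2 from k) ▸ pow_orderOf_eq_one g⟩]⟩,
    Set.ncard_insert_of_notMem (by simp)]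
  rfl

theorem Hyp.card_cent (h : Hyp A) (c : Core X) (h4 : Nat.card (VV X) = 4) {x : X} (hx : x ∉ VV X) :
    Nat.card (centralizer {x}) ≤ 32 := by
  have inv : ∀ t : X, t ^ 2 = 1 → t ∈ VV X := fun t ht => h.mem_VV h4 ht (c.comm t)
  have o2 := orderOf_eq_prime (c.sq x).2 fun t => hx (inv x t)
  have hP : ∀ a ∈ VV X, ∀ b ∈ VV X, a ∉ zpowers (x ^ 2) → b ∉ zpowers (x ^ 2) →
      a * b ∈ zpowers (x ^ 2) := fun a ha b hb k1 k2 => by
    rw [mem_zpowers_iff_of_orderOf_two o2] at *
    push Not at k1 k2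
    rcases four_cases h4.le ha (c.sq x) hb k1.1 (fun t => hx (inv x t)) k1.2 (VV.ne (c.sq x) k1.2)
      with t | t | t | t
    exacts [(k2.1 t).elim, Or.inl (by rw [t, VV.mul_self ha]), (k2.2 t).elim,
      Or.inr (by rw [t, ← mul_assoc, VV.mul_self ha, one_mul])]
  set T := VV X ⊔ zpowers x
  have k1 : ∀ y ∈ centralizer {x}, y ∉ T → y ^ 2 ∉ zpowers (x ^ 2) := fun y hy hT k => by
    rcases (mem_zpowers_iff_of_orderOf_two o2).1 k with t | t
    · exact hT (mem_sup_left (inv y t))
    · have := mem_sup_left (T := zpowers x) (inv (y * x⁻¹) (by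
        rw [Commute.mul_pow (Commute.inv_right (mem_centralizer_singleton_iff.1 hy)), t, inv_pow,
          mul_inv_cancel]))
      exact hT ((mul_mem_cancel_right (inv_mem (mem_sup_right (mem_zpowers x)))).1 this)
  have k2 : ∀ y ∈ centralizer {x}, ∀ u ∈ centralizer {x}, y ∉ T → u ∉ T ⊔ zpowers y →
      ⁅y, u⁆ ∉ zpowers (x ^ 2) := fun y hy u hu a1 a2 k => by
    refine k1 _ (mul_mem hy hu) (fun t => a2 ((mul_mem_cancel_left
      (mem_sup_right (mem_zpowers y))).1 (mem_sup_left t))) ?_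
    rw [mul_pow_eq_commutator (VV.comm (c.comm _ _) _) (VV.comm (c.comm _ _) _)]
    exact mul_mem (hP _ (c.sq y) _ (c.sq u) (k1 y hy a1) (k1 u hu fun t => a2 (mem_sup_left t)))
      (inv_mem (pow_mem k _))
  have cT : Nat.card T = 8 := by rw [c.card_sup le_rfl hx, h4]
  by_cases a1 : centralizer {x} ≤ T
  · exact (card_le_of_le a1).trans (by omega)
  obtain ⟨y, y1, y2⟩ := SetLike.not_le_iff_exists.1 a1
  have cM := c.card_sup (N := T) le_sup_left y2
  by_cases a2 : centralizer {x} ≤ T ⊔ zpowers y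
  · exact (card_le_of_le a2).trans (by omega)
  obtain ⟨s, s1, s2⟩ := SetLike.not_le_iff_exists.1 a2
  have cN := c.card_sup (N := T ⊔ zpowers y) (le_sup_left.trans le_sup_left) s2
  refine (card_le_of_le (K := T ⊔ zpowers y ⊔ zpowers s) fun u hu => by_contra fun t => ?_).trans
    (by omega)
  refine k2 y y1 _ (mul_mem hu s1) y2 (fun k => t ((mul_mem_cancel_right
    (mem_sup_right (mem_zpowers s))).1 (mem_sup_left k))) ?_
  rw [comm_mul_right _ _ _ (c.comm _ _).1]
  exact hP _ (c.comm _ _) _ (c.comm _ _) (k2 y y1 u hu y2 fun k => t (mem_sup_left k))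
    (k2 y y1 s s1 y2 s2)

theorem Hyp.not_small (h : Hyp A) (c : Core X) (h4 : Nat.card (VV X) = 4) {x : X} (hx : x ∉ VV X)
    (hi : (centralizer {x}).index ≤ 2) : ¬ Nat.card (centralizer {x}) ≤ 16 := by
  intro h16
  set K := centralizer ({x} : Set X)
  set T := VV X ⊔ zpowers x
  have cT : Nat.card T = 8 := by rw [c.card_sup le_rfl hx, h4]
  have TK : T ≤ K := sup_le (fun v hv => mem_centralizer_singleton_iff.2 (VV.comm hv x))
    (zpowers_le_of_mem (mem_centralizer_singleton_iff.2 rfl))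
  have : IsMulCommutative (VV X) := ⟨⟨fun a b => Subtype.ext (VV.comm a.2 b)⟩⟩
  have : IsMulCommutative T :=
    isMulCommutative_sup_zpowers (mem_centralizer_iff.2 fun v hv => VV.comm hv x)
  have ab : IsMulCommutative K := by
    by_cases a1 : K ≤ T
    · rwa [le_antisymm a1 TK]
    obtain ⟨y, y1, y2⟩ := SetLike.not_le_iff_exists.1 a1
    have cM := c.card_sup (N := T) le_sup_left y2
    rw [← eq_of_le_of_card_ge (sup_le TK (zpowers_le_of_mem y1)) (by omega)]
    refine isMulCommutative_sup_zpowers ?_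
    rw [centralizer_sup_zpowers]
    exact ⟨mem_centralizer_iff.2 fun v hv => VV.comm hv y, y1⟩
  have ab' : ∀ a ∈ K, ∀ b ∈ K, a * b = b * a := fun a ha b hb =>
    congrArg Subtype.val (ab.1.1 ⟨a, ha⟩ ⟨b, hb⟩)
  have nt : K ≠ ⊤ := fun t => hx (c.cen (mem_center_iff.2 fun g =>
    mem_centralizer_singleton_iff.1 (t ▸ mem_top g : g ∈ K)))
  have top : ∀ s, s ∉ K → K ⊔ zpowers s = ⊤ := fun s hs => by
    have := c.card_sup (le_sup_left.trans TK) hs
    have := K.card_mul_index
    refine eq_of_le_of_card_ge le_top ?_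
    rw [card_top]
    nlinarith
  obtain ⟨φ, -, a, a1, a2⟩ : ∃ φ ∈ A, ∃ a ∈ K, φ a ∉ K := by
    by_contra! t
    exact nt (h.idx t hi)
  have e1 : K ⊓ K.comap φ.symm.toMonoidHom ≤ VV X := fun g hg => c.cen (mem_center_iff.2 fun y => by
    refine mem_centralizer_singleton_iff.1 ((top _ a2).ge.trans (sup_le (fun k hk =>
      mem_centralizer_singleton_iff.2 (ab' k hk g hg.1)) (zpowers_le_of_mem
      (mem_centralizer_singleton_iff.2 ?_))) (mem_top y))
    simpa using congrArg φ (ab' a a1 _ hg.2))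
  have e2 : K = T := by
    refine (eq_of_le_of_card_ge TK ?_).symm
    have a1 := card_le_of_le e1
    have a2 := Lib.Transfer.card_mul_relIndex (inf_le_left : K ⊓ K.comap φ.symm.toMonoidHom ≤ K)
    have a3 : (K.comap φ.symm.toMonoidHom).relIndex K ≤ 2 := by
      refine (relIndex_le_of_le_right le_top ?_).trans ?_ <;>
        rw [relIndex_top_right, index_comap_of_surjective _ φ.symm.surjective]
      exacts [index_ne_zero_of_finite, hi]
    rw [inf_relIndex_left] at a2
    nlinarith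
  have key : ∀ g, ⁅g, x⁆ ∈ zpowers ⁅x, φ a⁆ → ⁅g, φ a⁆ ∈ zpowers ⁅x, φ a⁆ →
      ∀ y, ⁅g, y⁆ ∈ zpowers ⁅x, φ a⁆ := fun g k1 k2 y => by
    have : K ⊔ zpowers (φ a) ≤ (zpowers ⁅x, φ a⁆).comap (c.hom g) := by
      rw [e2]
      refine sup_le (sup_le (fun v hv => ?_) (zpowers_le_of_mem k1)) (zpowers_le_of_mem k2)
      change ⁅g, v⁆ ∈ zpowers _
      rw [commutatorElement_eq_one_iff_commute.2 (VV.comm hv g).symm]
      exact one_mem _
    exact this (top _ a2 ▸ mem_top y)
  have sym : ∀ g y : X, ⁅g, y⁆ ∈ zpowers ⁅x, φ a⁆ → ⁅y, g⁆ ∈ zpowers ⁅x, φ a⁆ := fun g y k =>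
    commutatorElement_inv g y ▸ inv_mem k
  have := card_le_of_le (c.der.trans (commutator_le.2 fun g _ y _ => key g
    (sym _ _ (key x (by simp) (mem_zpowers _) g))
    (sym _ _ (key _ (sym _ _ (mem_zpowers _)) (by simp) g)) y))
  rw [Nat.card_zpowers] at this
  have := orderOf_le_of_pow_eq_one two_pos (c.comm x (φ a)).2
  omega

theorem Hyp.card64 (h : Hyp A) (c : Core X) (hna : ¬ IsMulCommutative X)
    (h4 : Nat.card (VV X) = 4) : Nat.card X = 64 := by
  have pw : ∀ K : Subgroup X, 16 < Nat.card K → Nat.card K ≤ 32 → Nat.card K = 32 := by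
    intro K k1 k2
    obtain ⟨n, hn⟩ := IsPGroup.iff_card.1 (h.two.to_subgroup K)
    rw [hn] at k1 k2 ⊢
    have : n < 6 := (Nat.pow_lt_pow_iff_right one_lt_two).1 (by omega)
    interval_cases n <;> omega
  by_cases k : ∃ x, x ∉ VV X ∧ (centralizer {x}).index ≤ 2
  · obtain ⟨x, x1, x2⟩ := k
    have a1 := pw _ (not_le.1 (h.not_small c h4 x1 x2)) (h.card_cent c h4 x1)
    have a2 := (centralizer ({x} : Set X)).card_mul_index
    have a3 : (centralizer ({x} : Set X)).index ≠ 1 := fun t => x1 (c.cen (mem_center_iff.2 fun g =>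
      mem_centralizer_singleton_iff.1 (index_eq_one.1 t ▸ mem_top g)))
    have a4 := index_ne_zero_of_finite (H := centralizer ({x} : Set X))
    rw [← a2, a1, show (centralizer ({x} : Set X)).index = 2 by omega]
  push Not at k
  obtain ⟨v, hv, v1⟩ : ∃ v ∈ VV X, v ≠ 1 := by
    by_contra! t
    rw [(eq_bot_iff_forall _).2 t, card_bot] at h4
    omega
  have o2 := orderOf_eq_prime hv.2 v1
  have cP : Nat.card (zpowers v) = 2 := by rw [Nat.card_zpowers, o2]
  obtain ⟨w, hw, w1⟩ : ∃ w ∈ VV X, w ∉ zpowers v := by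
    by_contra! t
    have := card_le_of_le (show VV X ≤ zpowers v from t)
    omega
  have : (zpowers v).Normal := ⟨fun n hn g => by
    rw [← (VV.comm (zpowers_le_of_mem hv hn) g).eq, mul_inv_cancel_right]; exact hn⟩
  let π := QuotientGroup.mk' (zpowers v)
  have w2 := not_or.1 (mt (mem_zpowers_iff_of_orderOf_two o2).2 w1)
  have pv : π v = 1 := (QuotientGroup.eq_one_iff v).2 (mem_zpowers v)
  have im : ∀ u ∈ VV X, π u ∈ zpowers (π w) := fun u hu => by
    rcases four_cases h4.le hv hw hu v1 w2.1 (Ne.symm w2.2) (VV.ne hw (Ne.symm w2.2))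
      with rfl | rfl | rfl | rfl <;> simp [pv]
  have es : IsES 2 (π w) ⊤ := by
    refine ⟨trivial, orderOf_eq_prime (by rw [← map_pow, hw.2, map_one]) fun t =>
      w1 ((QuotientGroup.eq_one_iff w).1 t), fun x _ y _ => ?_, fun x _ => ?_, le_antisymm
      (fun x hx => ?_) (zpowers_le_of_mem ⟨trivial, mem_centralizer_iff.2 fun y _ => ?_⟩)⟩
    · obtain ⟨x, rfl⟩ := QuotientGroup.mk'_surjective _ x
      obtain ⟨y, rfl⟩ := QuotientGroup.mk'_surjective _ y
      exact map_commutatorElement π x y ▸ im _ (c.comm x y)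
    · obtain ⟨x, rfl⟩ := QuotientGroup.mk'_surjective _ x
      exact map_pow π x 2 ▸ im _ (c.sq x)
    · obtain ⟨x, rfl⟩ := QuotientGroup.mk'_surjective _ x
      refine im _ (by_contra fun t => (k x t).not_ge (cP ▸ index_centralizer_le fun g => ?_))
      rw [← QuotientGroup.eq_one_iff, ← QuotientGroup.mk'_apply, map_commutatorElement,
        commutatorElement_eq_one_iff_mul_comm]
      exact mem_centralizer_iff.1 hx.2 _ trivial
    · obtain ⟨y, rfl⟩ := QuotientGroup.mk'_surjective _ y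
      exact ((VV.comm hw y).map π).symm
  obtain ⟨n, hn⟩ := es.exists_card
  have a1 := card_eq_card_quotient_mul_card_subgroup (zpowers v)
  rw [← card_top (G := X ⧸ _), hn, cP] at a1
  obtain ⟨x, hx⟩ : ∃ x, x ∉ VV X := by
    by_contra! t
    exact hna ⟨⟨fun a b => VV.comm (t a) b⟩⟩
  have a2 := (centralizer ({x} : Set X)).card_mul_index
  have a3 := h.card_cent c h4 hx
  have a4 := h4 ▸ index_centralizer_le (x := x) fun g => c.comm g x
  have a5 := k x hx
  have a6 : 8 ≤ Nat.card (centralizer ({x} : Set X)) := by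
    rw [show 8 = 4 * 2 from rfl, ← h4, ← c.card_sup le_rfl hx]
    exact card_le_of_le (sup_le (fun v hv => mem_centralizer_singleton_iff.2 (VV.comm hv x))
      (zpowers_le_of_mem (mem_centralizer_singleton_iff.2 rfl)))
  have b1 : 24 ≤ Nat.card X := by nlinarith
  have b2 : Nat.card X ≤ 128 := by nlinarith
  rw [a1] at b1 b2 ⊢
  have : 2 * n + 1 < 7 := (Nat.pow_lt_pow_iff_right one_lt_two).1 (by omega)
  have : n < 3 := by omega
  interval_cases n <;> omega

end Cfsg.Agent.Scn
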